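import Mathlib
import Cfsg.Agent.Lib.Helper41.SnB.Q8Defs
import Cfsg.Agent.Lib.Helper34.SnB.QSDefs
import Cfsg.Agent.Lib.Helper83.SnB.Q8MDefs

/-!
S2986, sub-package [M-CQ2] (helper27): two exceptional blocks, the orbit lemma in `G ⧸ V`.
-/

set_option autoImplicit false

namespace Cfsg.Agent.Lib.Helper27.SnB

open Cfsg Cfsg.Agent.Lib.Helper41.SnB Cfsg.Agent.Lib.Helper34.SnB Cfsg.Agent.Lib.Helper83.SnB

universe u

variable {G : Type u} [Group G]

/-- `H.card * H.relIndex K = K.card` for `H ≤ K`. -/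
theorem card_mul_relIndex_le {H K : Subgroup G} (h : H ≤ K) :
    Nat.card H * H.relIndex K = Nat.card K := by
  rw [← Subgroup.relIndex_bot_left, ← Subgroup.relIndex_bot_left (H := K)]
  exact Subgroup.relIndex_mul_relIndex ⊥ H K bot_le h

/-- no integer `n` has `3 ∣ n * n + 1` -/
theorem not_three_dvd_sq_add_one (n : ℤ) : ¬ (3 : ℤ) ∣ n * n + 1 := by
  intro h
  have h9 : ((n * n + 1 : ℤ) : ZMod 3) = 0 := (ZMod.intCast_zmod_eq_zero_iff_dvd _ 3).mpr h
  push_cast at h9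
  revert h9
  generalize (n : ZMod 3) = t
  revert t
  decide

/-- The image of the pair `(K, Q)` of an exceptional block in a quotient by `V` is a pair for the
orbit lemma. -/
theorem cqpair_quot {p : ℕ} {S₀ X K : Subgroup G} {z : G}
    (_gf : GF p S₀) (o : OB p S₀ X K z) (x : XB p S₀ X K z)
    {H : Type*} [Group H] (π : G →* H) (hπ : ∀ g, π g = 1 ↔ g ∈ Vb p G) :
    CQPair ((pCore p G).map π) 9 (K.map π) ((Qb p X).map π) (π z) := by
  have hker : π.ker = Vb p G := by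
    ext g
    rw [MonoidHom.mem_ker, hπ]
  have hzX : z ∈ X := o.q8.KX o.q8.zK
  have hzN : z ∈ Subgroup.normalizer (X : Set G) := Subgroup.le_normalizer hzX
  -- the order of the image of `Q`
  have hcardQ : Nat.card ↥((Qb p X).map π) = 9 := by
    have hVQ : Vb p G ⊓ Qb p X = Wb p X := le_antisymm o.b1.VQW (le_inf x.WV o.bf.WQ)
    have h1 : Nat.card ↥((Qb p X).map π) = (Vb p G).relIndex (Qb p X) := by
      rw [← Subgroup.relIndex_ker, hker]
    have h2 : (Vb p G).relIndex (Qb p X) = (Wb p X).relIndex (Qb p X) := by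
      rw [← hVQ, Subgroup.inf_relIndex_right]
    have h3 := card_mul_relIndex_le o.bf.WQ
    rw [x.cardW, x.exc.cardQ] at h3
    rw [h1, h2]
    omega
  -- `π z` inverts the image of `Q`
  have hinvQ : ∀ d ∈ (Qb p X).map π, π z * d * (π z)⁻¹ = d⁻¹ := by
    rintro _ ⟨u, hu, rfl⟩
    have h1 : z * u * z⁻¹ * u ∈ Vb p G := x.WV (x.exc.invQ u hu)
    have h2 := (hπ _).mpr h1
    rw [map_mul, map_mul, map_mul, map_inv] at h2
    exact mul_eq_one_iff_eq_inv.mp h2
  -- elements of `K` outside `{1, z}`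
  obtain ⟨k, hk, k', hk', hkk'⟩ := o.b1.nonab
  have hk1 : k ≠ 1 := by
    rintro rfl
    apply o.q8.z1
    rw [← hkk']
    group
  have hkz : k ≠ z := by
    intro h
    rw [h] at hkk'
    apply o.q8.z1
    have h1 := o.q8.zc k' hk'
    calc z = z * k' * z⁻¹ * k'⁻¹ := hkk'.symm
      _ = k' * z * z⁻¹ * k'⁻¹ := by rw [h1]
      _ = 1 := by group
  have hk'1 : k' ≠ 1 := by
    rintro rfl
    apply o.q8.z1
    rw [← hkk']
    group
  have hk'z : k' ≠ z := by
    intro h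
    rw [h] at hkk'
    apply o.q8.z1
    have h1 := o.q8.zc k hk
    calc z = k * z * k⁻¹ * z⁻¹ := hkk'.symm
      _ = z * k * k⁻¹ * z⁻¹ := by rw [h1]
      _ = 1 := by group
  refine ⟨Subgroup.map_mono o.sb.QP, hcardQ, ?_, ?_, ⟨z, o.q8.zK, rfl⟩, ?_, ?_, ?_⟩
  · -- `P` normalizes `Q`
    rintro _ ⟨c, hc, rfl⟩ _ ⟨u, hu, rfl⟩
    exact ⟨c * u * c⁻¹, o.bf.nQ c (o.sb.PN hc) u hu, by simp⟩
  · -- `[P, K] ≤ Q`
    rintro _ ⟨c, hc, rfl⟩ _ ⟨l, hl, rfl⟩
    exact ⟨l * c * l⁻¹ * c⁻¹, o.b1.PXQ l (o.q8.KX hl) c hc, by simp⟩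
  · -- `π z` central in the image of `K`
    rintro _ ⟨l, hl, rfl⟩
    rw [← map_mul, ← map_mul, o.q8.zc l hl]
  · -- fixed-point-free
    rintro _ ⟨u, hu, rfl⟩ hcomm
    have h1 : z * u * z⁻¹ * u⁻¹ ∈ Vb p G := by
      rw [← hπ, map_mul, map_mul, map_mul, map_inv, map_inv, hcomm]
      group
    have h2 : z * u * z⁻¹ * u⁻¹ ∈ Qb p X :=
      (Qb p X).mul_mem (o.bf.nQ z hzN u hu) ((Qb p X).inv_mem hu)
    have h3 : z * u * z⁻¹ * u⁻¹ ∈ Wb p X := o.b1.VQW ⟨h1, h2⟩
    have h4 : z * u * z⁻¹ * u ∈ Wb p X := x.exc.invQ u hu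
    have h5 : u * u ∈ Wb p X := by
      have e : u * u = (z * u * z⁻¹ * u⁻¹)⁻¹ * (z * u * z⁻¹ * u) := by group
      rw [e]
      exact (Wb p X).mul_mem ((Wb p X).inv_mem h3) h4
    exact (hπ u).mpr (x.WV (x.sqW u hu h5))
  · -- irreducibility
    intro K₀ hK₀ hK₀2
    -- `π z ∈ K₀`
    have hzK₀ : π z ∈ K₀ := by
      by_contra hz
      have hkK₀ : π k ∉ K₀ := by
        intro h
        rcases o.q8.sq k hk with h1 | h1 | h1
        · exact hk1 h1
        · exact hkz h1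
        · apply hz
          rw [← h1, map_mul]
          exact K₀.mul_mem h h
      have h2 := hK₀2 (π z) ⟨z, o.q8.zK, rfl⟩ (π k) ⟨k, hk, rfl⟩ hz hkK₀
      have h2' : π (z⁻¹ * k) ∈ K₀ := by
        rw [map_mul, map_inv]
        exact h2
      have hm : z⁻¹ * k ∈ K := K.mul_mem (K.inv_mem o.q8.zK) hk
      rcases o.q8.sq (z⁻¹ * k) hm with h1 | h1 | h1
      · exact hkz (inv_mul_eq_one.mp h1).symm
      · apply hz
        rw [← h1]
        exact h2'
      · apply hz
        rw [← h1, map_mul]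
        exact K₀.mul_mem h2' h2'
    refine ⟨hzK₀, ?_⟩
    -- an element of order 4 in the preimage of `K₀`
    have hk₁ : ∃ k₁ ∈ K, π k₁ ∈ K₀ ∧ k₁ * k₁ = z := by
      by_contra hcon
      push Not at hcon
      have hcases : ∀ l ∈ K, π l ∈ K₀ → l = 1 ∨ l = z := by
        intro l hl hlK₀
        rcases o.q8.sq l hl with h1 | h1 | h1
        · exact Or.inl h1
        · exact Or.inr h1
        · exact absurd h1 (hcon l hl hlK₀)
      have hkK₀ : π k ∉ K₀ := by
        intro h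
        rcases hcases k hk h with h1 | h1
        · exact hk1 h1
        · exact hkz h1
      have hk'K₀ : π k' ∉ K₀ := by
        intro h
        rcases hcases k' hk' h with h1 | h1
        · exact hk'1 h1
        · exact hk'z h1
      have h2 := hK₀2 (π k) ⟨k, hk, rfl⟩ (π k') ⟨k', hk', rfl⟩ hkK₀ hk'K₀
      have h2' : π (k⁻¹ * k') ∈ K₀ := by
        rw [map_mul, map_inv]
        exact h2
      have hm : k⁻¹ * k' ∈ K := K.mul_mem (K.inv_mem hk) hk'
      rcases hcases _ hm h2' with h1 | h1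
      · have h3 : k' = k := (inv_mul_eq_one.mp h1).symm
        rw [h3] at hkk'
        apply o.q8.z1
        rw [← hkk']
        group
      · have h3 : k' = k * z := by rw [← h1]; group
        rw [h3] at hkk'
        have h4 := o.q8.zc k hk
        apply o.q8.z1
        calc z = k * (k * z) * k⁻¹ * (k * z)⁻¹ := hkk'.symm
          _ = k * (k * z) * k⁻¹ * z⁻¹ * k⁻¹ := by group
          _ = k * (z * k) * k⁻¹ * z⁻¹ * k⁻¹ := by rw [h4]
          _ = 1 := by group
    obtain ⟨k₁, hk₁K, hk₁K₀, hk₁sq⟩ := hk₁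
    intro D hD hNzD
    have hdvd : Nat.card ↥D ∣ 3 ^ 2 := by
      have h1 := Subgroup.card_dvd_of_le hD
      rw [hcardQ] at h1
      exact h1
    obtain ⟨m, hm, hmc⟩ := (Nat.dvd_prime_pow Nat.prime_three).mp hdvd
    interval_cases m
    · left
      exact Subgroup.eq_bot_of_card_eq D (by simpa using hmc)
    · exfalso
      rw [pow_one] at hmc
      have hp3 : Fact (Nat.Prime 3) := ⟨Nat.prime_three⟩
      obtain ⟨d, hdD, hd1⟩ : ∃ d ∈ D, d ≠ 1 := by
        by_contra hcon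
        push Not at hcon
        have h1 : D = ⊥ := (Subgroup.eq_bot_iff_forall D).mpr hcon
        rw [h1] at hmc
        simp at hmc
      have hd3 : d ^ 3 = 1 := by
        have h := pow_card_eq_one' (G := ↥D) (x := ⟨d, hdD⟩)
        rw [hmc] at h
        have h' := congrArg Subtype.val h
        simpa using h'
      have hd' : π k₁ * d * (π k₁)⁻¹ ∈ D := hNzD (π k₁) hk₁K₀ d hdD
      have hz : (⟨π k₁ * d * (π k₁)⁻¹, hd'⟩ : ↥D) ∈ Subgroup.zpowers (⟨d, hdD⟩ : ↥D) :=
        mem_zpowers_of_prime_card hmc (by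
          intro h
          exact hd1 (congrArg Subtype.val h))
      obtain ⟨n, hn⟩ := Subgroup.mem_zpowers_iff.mp hz
      have hn' : d ^ n = π k₁ * d * (π k₁)⁻¹ := by
        have h := congrArg Subtype.val hn
        simpa using h
      have h4 : π z * d * (π z)⁻¹ = d ^ (n * n) := by
        have hz2 : π z = π k₁ * π k₁ := by rw [← map_mul, hk₁sq]
        calc π z * d * (π z)⁻¹ = π k₁ * (π k₁ * d * (π k₁)⁻¹) * (π k₁)⁻¹ := by
              rw [hz2]; group
          _ = π k₁ * d ^ n * (π k₁)⁻¹ := by rw [hn']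
          _ = (π k₁ * d * (π k₁)⁻¹) ^ n := conj_zpow.symm
          _ = (d ^ n) ^ n := by rw [hn']
          _ = d ^ (n * n) := (zpow_mul d n n).symm
      have h5 : π z * d * (π z)⁻¹ = d⁻¹ := hinvQ d (hD hdD)
      have h6 : d ^ (n * n + 1) = 1 := by
        rw [zpow_add, zpow_one, ← h4, h5, inv_mul_cancel]
      have h7 : orderOf d = 3 := by
        have h := orderOf_dvd_of_pow_eq_one hd3
        rcases (Nat.dvd_prime Nat.prime_three).mp h with h | h
        · exact absurd (orderOf_eq_one_iff.mp h) hd1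
        · exact h
      have h8 : ((orderOf d : ℕ) : ℤ) ∣ n * n + 1 := orderOf_dvd_iff_zpow_eq_one.mpr h6
      rw [h7] at h8
      exact not_three_dvd_sq_add_one n h8
    · right
      have hfin : Finite ↥((Qb p X).map π) :=
        Nat.finite_of_card_ne_zero (by rw [hcardQ]; norm_num)
      exact Subgroup.eq_of_le_of_card_ge hD (by rw [hcardQ, hmc]; norm_num)

/-- **[M-CQ2]** two exceptional blocks: the orbit lemma in `G ⧸ V`. -/
theorem pkgCQ2_of (hCQ : PkgCQ.{u}) : PkgCQ2.{u} := by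
  intro G _ _ p _ S₀ E F KE KF zE zF gf oE oF xE xF
  have hVn : (Vb p G).Normal := ⟨fun v hv g => gf.Vn g v hv⟩
  have hp2 : Fact (Nat.Prime 2) := ⟨Nat.prime_two⟩
  obtain ⟨π, hπdef⟩ : ∃ π : G →* G ⧸ Vb p G, π = QuotientGroup.mk' (Vb p G) := ⟨_, rfl⟩
  have hπ : ∀ g, π g = 1 ↔ g ∈ Vb p G := by
    intro g
    rw [hπdef]
    exact QuotientGroup.eq_one_iff g
  have hker : π.ker = Vb p G := by
    ext g
    rw [MonoidHom.mem_ker, hπ]
  have hS2 : IsPGroup 2 ↥(S₀.map π) := gf.syl.1.map π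
  have hNz : Nz (S₀.map π) ((pCore p G).map π) := by
    rintro _ ⟨s, hs, rfl⟩ _ ⟨c, hc, rfl⟩
    exact ⟨s * c * s⁻¹, gf.Pn s c hc, by simp⟩
  rcases hCQ (S₀.map π) ((pCore p G).map π) 2 hS2 hNz 9 (by norm_num)
    (KE.map π) ((Qb p E).map π) (π zE) (KF.map π) ((Qb p F).map π) (π zF)
    (Subgroup.map_mono oE.q8.KS) (Subgroup.map_mono oF.q8.KS)
    (cqpair_quot gf oE xE π hπ) (cqpair_quot gf oF xF π hπ) with h | ⟨h1, h2⟩
  · left
    show Qb p E ⊔ Vb p G = Qb p F ⊔ Vb p G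
    have h3 := congrArg (Subgroup.comap π) h
    rw [Subgroup.comap_map_eq, Subgroup.comap_map_eq, hker] at h3
    exact h3
  · right
    constructor
    · intro l hl u hu
      have h3 := h1 (π l) ⟨l, hl, rfl⟩ (π u) ⟨u, hu, rfl⟩
      rw [← hπ, map_mul, map_mul, map_mul, map_inv, map_inv, h3]
      group
    · intro k hk v hv
      have h3 := h2 (π k) ⟨k, hk, rfl⟩ (π v) ⟨v, hv, rfl⟩
      rw [← hπ, map_mul, map_mul, map_mul, map_inv, map_inv, h3]
      group

end Cfsg.Agent.Lib.Helper27.SnB
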