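import Mathlib
import Cfsg.Agent.Lib.Helper41.SnB.Q8Defs
import Cfsg.Agent.Lib.Helper34.SnB.QSDefs
import Cfsg.Agent.Lib.Helper83.SnB.Q8MDefs

/-!
S2986, sub-package [M-EQ] (helper27): two blocks of type `Q₈` with the same involution are equal.
-/

set_option autoImplicit false

namespace Cfsg.Agent.Lib.Helper27.SnB

open Cfsg Cfsg.Agent.Lib.Helper41.SnB Cfsg.Agent.Lib.Helper34.SnB Cfsg.Agent.Lib.Helper83.SnB

universe u

/-- **[M-EQ]** `z_E = z_F` implies `E = F`. -/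
theorem pkgEQ_of (hSI : PkgSI.{u}) : PkgEQ.{u} := by
  intro G _ _ p _ S₀ E F KE KF zE zF gf oE oF hz
  subst hz
  have hQ : Qb p E = Qb p F := oE.ZQ.trans oF.ZQ.symm
  have hW : Wb p E = Wb p F := by
    show omegaOneCenter p (Qb p E) = omegaOneCenter p (Qb p F)
    rw [hQ]
  -- `A` and `Z` coincide
  have hAZ : Ab p E = Ab p F ∧ Zb p E = Zb p F := by
    rcases oE.alt with nE | xE <;> rcases oF.alt with nF | xF
    · exact ⟨nE.1.symm.trans (hQ.trans nF.1), nE.2.2.trans nF.2.2.symm⟩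
    · exfalso
      have h1 : Nat.card ↥(Qb p E) = 9 := by rw [nE.1]; exact oE.q8.cardA
      have h2 : Nat.card ↥(Qb p F) = 243 := xF.exc.cardQ
      rw [hQ, h2] at h1
      omega
    · exfalso
      have h1 : Nat.card ↥(Qb p F) = 9 := by rw [nF.1]; exact oF.q8.cardA
      have h2 : Nat.card ↥(Qb p E) = 243 := xE.exc.cardQ
      rw [hQ, h1] at h2
      omega
    · refine ⟨?_, ?_⟩
      · apply le_antisymm
        · intro a ha
          have haW : a ∈ Wb p F := by rw [← hW]; exact oE.bf.AW ha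
          exact xF.invW a haW (oE.q8.invA a ha)
        · intro a ha
          have haW : a ∈ Wb p E := by rw [hW]; exact oF.bf.AW ha
          exact xE.invW a haW (oF.q8.invA a ha)
      · rw [← xE.exc.comm, ← xF.exc.comm, hQ]
  obtain ⟨hA, hZ⟩ := hAZ
  -- an element of `S₀` centralizing `A`, `Z`, normalizing `Q`, with `[x, P] ≤ Q`, centralizes `Q`
  have hQcent : ∀ x ∈ S₀, (∀ a ∈ Ab p E, x * a = a * x) → (∀ ζ ∈ Zb p E, x * ζ = ζ * x) →
      (∀ u ∈ Qb p E, x * u * x⁻¹ ∈ Qb p E) → (∀ c ∈ pCore p G, x * c * x⁻¹ * c⁻¹ ∈ Qb p E) →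
      ∀ u ∈ Qb p E, x * u = u * x := by
    intro x hxS hxA hxZ hxQ hxP
    rcases oE.alt with nE | xE
    · intro u hu
      have huA : u ∈ Ab p E := by rw [← nE.1]; exact hu
      exact hxA u huA
    · have hxW : ∀ w ∈ Wb p E, x * w = w * x := by
        intro w hw
        obtain ⟨a, ha, ζ, hζ, rfl⟩ := oE.bf.WAZ w hw
        have h1 := hxA a ha
        have h2 := hxZ ζ hζ
        calc x * (a * ζ) = (x * a) * ζ := by group
          _ = (a * x) * ζ := by rw [h1]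
          _ = a * (x * ζ) := by group
          _ = a * (ζ * x) := by rw [h2]
          _ = a * ζ * x := by group
      have h3 : ∀ u ∈ Qb p E, x * u * x⁻¹ * u⁻¹ ∈ Wb p E := by
        apply xE.nq x hxS hxQ
        · intro w hw
          have e : x * w * x⁻¹ * w⁻¹ = 1 := by rw [hxW w hw]; group
          rw [e]
          exact Subgroup.one_mem _
        · intro c hc u hu
          exact xE.QZ _ (hxP c hc) u hu
      exact coprimeChain (Qb p E) (Wb p E) x (fun h hh => gf.Pp h (oE.sb.QP hh)) (gf.S2 x hxS)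
        oE.bf.WQ hxW h3
  -- `K_F ≤ K_E`
  have hKle : KF ≤ KE := by
    intro l hl
    obtain ⟨k, hk, hkl⟩ := hSI S₀ E F KE KF zE zE gf oE oF hA l hl
    have hxS : k⁻¹ * l ∈ S₀ := S₀.mul_mem (S₀.inv_mem (oE.q8.KS hk)) (oF.q8.KS hl)
    have hxA : ∀ a ∈ Ab p E, (k⁻¹ * l) * a = a * (k⁻¹ * l) := by
      intro a ha
      have h1 := hkl a ha
      have h2 : l * a = k * a * k⁻¹ * l := by rw [h1]; group
      calc k⁻¹ * l * a = k⁻¹ * (l * a) := by group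
        _ = k⁻¹ * (k * a * k⁻¹ * l) := by rw [h2]
        _ = a * (k⁻¹ * l) := by group
    have hxZ : ∀ ζ ∈ Zb p E, (k⁻¹ * l) * ζ = ζ * (k⁻¹ * l) := by
      intro ζ hζ
      have hζF : ζ ∈ Zb p F := by rw [← hZ]; exact hζ
      have h1 : ζ * k⁻¹ = k⁻¹ * ζ := oE.bf.ZC ζ hζ k⁻¹ (E.inv_mem (oE.q8.KX hk))
      have h2 : ζ * l = l * ζ := oF.bf.ZC ζ hζF l (oF.q8.KX hl)
      calc k⁻¹ * l * ζ = k⁻¹ * (l * ζ) := by group
        _ = k⁻¹ * (ζ * l) := by rw [h2]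
        _ = (k⁻¹ * ζ) * l := by group
        _ = (ζ * k⁻¹) * l := by rw [h1]
        _ = ζ * (k⁻¹ * l) := by group
    have hkN : k⁻¹ ∈ Subgroup.normalizer (E : Set G) :=
      Subgroup.le_normalizer (E.inv_mem (oE.q8.KX hk))
    have hlN : l ∈ Subgroup.normalizer (F : Set G) := Subgroup.le_normalizer (oF.q8.KX hl)
    have hxQ : ∀ u ∈ Qb p E, (k⁻¹ * l) * u * (k⁻¹ * l)⁻¹ ∈ Qb p E := by
      intro u hu
      have huF : u ∈ Qb p F := by rw [← hQ]; exact hu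
      have h1 : l * u * l⁻¹ ∈ Qb p E := by rw [hQ]; exact oF.bf.nQ l hlN u huF
      have h2 := oE.bf.nQ k⁻¹ hkN _ h1
      have e : k⁻¹ * l * u * (k⁻¹ * l)⁻¹ = k⁻¹ * (l * u * l⁻¹) * k⁻¹⁻¹ := by group
      rw [e]
      exact h2
    have hxP : ∀ c ∈ pCore p G, (k⁻¹ * l) * c * (k⁻¹ * l)⁻¹ * c⁻¹ ∈ Qb p E := by
      intro c hc
      have h1 : l * c * l⁻¹ * c⁻¹ ∈ Qb p E := by
        rw [hQ]
        exact oF.b1.PXQ l (oF.q8.KX hl) c hc
      have h2 : k⁻¹ * c * k⁻¹⁻¹ * c⁻¹ ∈ Qb p E :=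
        oE.b1.PXQ k⁻¹ (E.inv_mem (oE.q8.KX hk)) c hc
      have h3 := oE.bf.nQ k⁻¹ hkN _ h1
      have e : k⁻¹ * l * c * (k⁻¹ * l)⁻¹ * c⁻¹ =
          (k⁻¹ * (l * c * l⁻¹ * c⁻¹) * k⁻¹⁻¹) * (k⁻¹ * c * k⁻¹⁻¹ * c⁻¹) := by group
      rw [e]
      exact (Qb p E).mul_mem h3 h2
    have hxcQ := hQcent (k⁻¹ * l) hxS hxA hxZ hxQ hxP
    have hxC : ∀ c ∈ pCore p G, zE * c = c * zE → (k⁻¹ * l) * c = c * (k⁻¹ * l) := by
      intro c hc hzc
      have h1 := oE.CP c hc hzc k hk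
      have h2 := oF.CP c hc hzc l hl
      have h3 : k⁻¹ * c = c * k⁻¹ := by
        calc k⁻¹ * c = k⁻¹ * (c * k) * k⁻¹ := by group
          _ = k⁻¹ * (k * c) * k⁻¹ := by rw [h1]
          _ = c * k⁻¹ := by group
      calc k⁻¹ * l * c = k⁻¹ * (l * c) := by group
        _ = k⁻¹ * (c * l) := by rw [h2]
        _ = (k⁻¹ * c) * l := by group
        _ = (c * k⁻¹) * l := by rw [h3]
        _ = c * (k⁻¹ * l) := by group
    have hx1 : k⁻¹ * l = 1 := by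
      apply gf.ST _ hxS
      intro c hc
      obtain ⟨u, hu, c₁, hc₁, rfl, hzc₁⟩ := oE.PQC c hc
      have h1 := hxcQ u hu
      have h2 := hxC c₁ hc₁ hzc₁
      calc k⁻¹ * l * (u * c₁) = (k⁻¹ * l * u) * c₁ := by group
        _ = (u * (k⁻¹ * l)) * c₁ := by rw [h1]
        _ = u * ((k⁻¹ * l) * c₁) := by group
        _ = u * (c₁ * (k⁻¹ * l)) := by rw [h2]
        _ = u * c₁ * (k⁻¹ * l) := by group
    have hlk : l = k := (inv_mul_eq_one.mp hx1).symm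
    rw [hlk]
    exact hk
  have hK : KF = KE :=
    Subgroup.eq_of_le_of_card_ge hKle (by rw [oE.q8.cardK, oF.q8.cardK])
  -- `E = F`
  apply le_antisymm
  · intro e he
    obtain ⟨q, hq, k, hk, rfl⟩ := oE.q8.dec e he
    have hqF : q ∈ Qb p F := by rw [← hQ]; exact hq
    have hkF : k ∈ KF := by rw [hK]; exact hk
    exact F.mul_mem (oF.bf.QX hqF) (oF.q8.KX hkF)
  · intro f hf
    obtain ⟨q, hq, k, hk, rfl⟩ := oF.q8.dec f hf
    have hqE : q ∈ Qb p E := by rw [hQ]; exact hq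
    have hkE : k ∈ KE := by rw [← hK]; exact hk
    exact E.mul_mem (oE.bf.QX hqE) (oE.q8.KX hkE)

end Cfsg.Agent.Lib.Helper27.SnB
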