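import Mathlib
import Cfsg.Agent.Lib.Helper41.SnB.Q8Defs

/-!
S2986, package [Q8-X] (helper27): tools.  Sections acted on as natural `SL₂`-modules, and the
abstract decomposition `W = W⁻ × Z` under an involution acting as `-1` modulo `Z`.
-/

set_option autoImplicit false

namespace Cfsg.Agent.Lib.Helper27.SnB

open Cfsg Cfsg.Agent.Lib.Helper41.SnB
open scoped commutatorElement

universe u

variable {G : Type u} [Group G]

section sections

variable {F : Type} [Field F]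

/-- an element of `SL₂(F)` fixing every vector is `1` -/
theorem sl_eq_one_of_mulVec (M : Matrix.SpecialLinearGroup (Fin 2) F)
    (h : ∀ v : Fin 2 → F, (M : Matrix (Fin 2) (Fin 2) F).mulVec v = v) : M = 1 := by
  apply Subtype.ext
  ext i j
  have h2 := congrFun (h (Pi.single j 1)) i
  rw [Matrix.mulVec_single_one] at h2
  simp only [Matrix.SpecialLinearGroup.coe_one, Matrix.one_apply, Pi.single_apply] at h2 ⊢
  exact h2

/-- `ρ e = 1`: `e` acts trivially on the section. -/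
theorem sec_triv_of {E U U₀ : Subgroup G}
    (ρ : ↥E →* Matrix.SpecialLinearGroup (Fin 2) F) (ψ : ↥U →* Multiplicative (Fin 2 → F))
    (hψk : ∀ u : ↥U, ψ u = 1 ↔ (u : G) ∈ U₀)
    (hact : ∀ (e : ↥E) (u : ↥U), ∃ w : ↥U, (w : G) = (e : G) * (u : G) * (e : G)⁻¹ ∧
      Multiplicative.toAdd (ψ w) =
        ((ρ e : Matrix.SpecialLinearGroup (Fin 2) F) : Matrix (Fin 2) (Fin 2) F).mulVec
          (Multiplicative.toAdd (ψ u)))
    (e : ↥E) (he : ρ e = 1) : ∀ u ∈ U, (e : G) * u * (e : G)⁻¹ * u⁻¹ ∈ U₀ := by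
  intro u hu
  obtain ⟨w, hw, hw'⟩ := hact e ⟨u, hu⟩
  rw [he] at hw'
  simp only [Matrix.SpecialLinearGroup.coe_one, Matrix.one_mulVec] at hw'
  have h1 : ψ w = ψ ⟨u, hu⟩ := hw'
  have h2 : ψ (w * (⟨u, hu⟩ : ↥U)⁻¹) = 1 := by rw [map_mul, map_inv, h1, mul_inv_cancel]
  have h3 := (hψk _).mp h2
  have h4 : ((w * (⟨u, hu⟩ : ↥U)⁻¹ : ↥U) : G) = (e : G) * u * (e : G)⁻¹ * u⁻¹ := by
    rw [Subgroup.coe_mul, Subgroup.coe_inv, hw]
  rw [← h4]
  exact h3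

/-- `ρ e` acts as `-1`: `e` inverts the section. -/
theorem sec_neg_of {E U U₀ : Subgroup G}
    (ρ : ↥E →* Matrix.SpecialLinearGroup (Fin 2) F) (ψ : ↥U →* Multiplicative (Fin 2 → F))
    (hψk : ∀ u : ↥U, ψ u = 1 ↔ (u : G) ∈ U₀)
    (hact : ∀ (e : ↥E) (u : ↥U), ∃ w : ↥U, (w : G) = (e : G) * (u : G) * (e : G)⁻¹ ∧
      Multiplicative.toAdd (ψ w) =
        ((ρ e : Matrix.SpecialLinearGroup (Fin 2) F) : Matrix (Fin 2) (Fin 2) F).mulVec
          (Multiplicative.toAdd (ψ u)))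
    (e : ↥E)
    (he : ∀ v : Fin 2 → F,
      ((ρ e : Matrix.SpecialLinearGroup (Fin 2) F) : Matrix (Fin 2) (Fin 2) F).mulVec v = -v) :
    ∀ u ∈ U, (e : G) * u * (e : G)⁻¹ * u ∈ U₀ := by
  intro u hu
  obtain ⟨w, hw, hw'⟩ := hact e ⟨u, hu⟩
  rw [he] at hw'
  have h1 : ψ w = (ψ ⟨u, hu⟩)⁻¹ := by
    apply Multiplicative.toAdd.injective
    rw [hw', toAdd_inv]
  have h2 : ψ (w * (⟨u, hu⟩ : ↥U)) = 1 := by rw [map_mul, h1, inv_mul_cancel]
  have h3 := (hψk _).mp h2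
  have h4 : ((w * (⟨u, hu⟩ : ↥U) : ↥U) : G) = (e : G) * u * (e : G)⁻¹ * u := by
    rw [Subgroup.coe_mul, hw]
  rw [← h4]
  exact h3

/-- `e` acts trivially on the section: `ρ e = 1`. -/
theorem sec_one_of {E U U₀ : Subgroup G}
    (ρ : ↥E →* Matrix.SpecialLinearGroup (Fin 2) F) (ψ : ↥U →* Multiplicative (Fin 2 → F))
    (hsurj : Function.Surjective ψ)
    (hψk : ∀ u : ↥U, ψ u = 1 ↔ (u : G) ∈ U₀)
    (hact : ∀ (e : ↥E) (u : ↥U), ∃ w : ↥U, (w : G) = (e : G) * (u : G) * (e : G)⁻¹ ∧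
      Multiplicative.toAdd (ψ w) =
        ((ρ e : Matrix.SpecialLinearGroup (Fin 2) F) : Matrix (Fin 2) (Fin 2) F).mulVec
          (Multiplicative.toAdd (ψ u)))
    (e : ↥E) (he : ∀ u ∈ U, (e : G) * u * (e : G)⁻¹ * u⁻¹ ∈ U₀) : ρ e = 1 := by
  apply sl_eq_one_of_mulVec
  intro v
  obtain ⟨u, hu⟩ := hsurj (Multiplicative.ofAdd v)
  obtain ⟨w, hw, hw'⟩ := hact e u
  have h2 : ψ (w * u⁻¹) = 1 := by
    rw [hψk]
    have : ((w * u⁻¹ : ↥U) : G) = (e : G) * u * (e : G)⁻¹ * (u : G)⁻¹ := by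
      rw [Subgroup.coe_mul, Subgroup.coe_inv, hw]
    rw [this]
    exact he u u.2
  have h3 : ψ w = ψ u := by
    rw [map_mul, map_inv] at h2
    exact mul_inv_eq_one.mp h2
  rw [h3, hu] at hw'
  exact hw'.symm

/-- the order of the top of a section -/
theorem sec_card {U U₀ : Subgroup G} (hle : U₀ ≤ U) (ψ : ↥U →* Multiplicative (Fin 2 → F))
    (hsurj : Function.Surjective ψ) (hψk : ∀ u : ↥U, ψ u = 1 ↔ (u : G) ∈ U₀) :
    Nat.card ↥U = Nat.card (Fin 2 → F) * Nat.card ↥U₀ := by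
  have hker : ψ.ker = U₀.subgroupOf U := by
    ext u
    rw [MonoidHom.mem_ker, hψk, Subgroup.mem_subgroupOf]
  have h1 := Subgroup.card_mul_index ψ.ker
  rw [Subgroup.index_ker, MonoidHom.range_eq_top.mpr hsurj, Subgroup.card_top, hker,
    Nat.card_congr (Subgroup.subgroupOfEquivOfLe hle).toEquiv] at h1
  rw [← h1, mul_comm]
  rfl

/-- `2 ≠ 0` in a field with three elements -/
theorem two_ne_zero_of_card_three [Fintype F] (hF : Fintype.card F = 3) : (2 : F) ≠ 0 := by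
  apply Ring.two_ne_zero
  intro h
  have := FiniteField.even_card_of_char_two h
  omega

omit [Field F] in
/-- the number of vectors -/
theorem card_vec_of_card_three [Fintype F] (hF : Fintype.card F = 3) :
    Nat.card (Fin 2 → F) = 9 := by
  rw [Nat.card_eq_fintype_card, Fintype.card_fun, hF]
  rfl

/-- an element of `SL₂(F)` acting as `-1` is not `1` and squares to `1` -/
theorem neg_elt_facts [Fintype F] (hF : Fintype.card F = 3)
    (zD : Matrix.SpecialLinearGroup (Fin 2) F)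
    (hneg : ∀ v : Fin 2 → F, (zD : Matrix (Fin 2) (Fin 2) F).mulVec v = -v) :
    zD ≠ 1 ∧ zD * zD = 1 := by
  constructor
  · intro h
    have h1 := hneg (fun _ => 1)
    rw [h] at h1
    simp only [Matrix.SpecialLinearGroup.coe_one, Matrix.one_mulVec] at h1
    have h2 := congrFun h1 0
    simp only [Pi.neg_apply] at h2
    have h3 : (2 : F) = 0 := by
      have : (1 : F) + 1 = 0 := by nth_rewrite 1 [h2]; exact neg_add_cancel 1
      rw [← this]; norm_num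
    exact two_ne_zero_of_card_three hF h3
  · apply sl_eq_one_of_mulVec
    intro v
    rw [Matrix.SpecialLinearGroup.coe_mul, ← Matrix.mulVec_mulVec, hneg, hneg, neg_neg]

end sections

section wminus

/-- an identity in an abelian group of exponent `3` -/
theorem comm_sq_identity {a b : G} (hc : a * b = b * a) (h3 : a ^ 3 = 1) :
    (a * b⁻¹) * (a * b⁻¹) * ((a * b) * (a * b)) = a := by
  have hc' : Commute a b := hc
  have e1 : (a * b⁻¹) * (a * b⁻¹) = a ^ 2 * (b⁻¹) ^ 2 := by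
    rw [← sq, (hc'.inv_right).mul_pow]
  have e2 : (a * b) * (a * b) = a ^ 2 * b ^ 2 := by rw [← sq, hc'.mul_pow]
  rw [e1, e2]
  have hc2 : Commute ((b⁻¹) ^ 2) (a ^ 2) := (hc'.inv_right).symm.pow_pow 2 2
  calc a ^ 2 * (b⁻¹) ^ 2 * (a ^ 2 * b ^ 2) = a ^ 2 * ((b⁻¹) ^ 2 * a ^ 2) * b ^ 2 := by group
    _ = a ^ 2 * (a ^ 2 * (b⁻¹) ^ 2) * b ^ 2 := by rw [hc2.eq]
    _ = a ^ 3 * a := by group
    _ = a := by rw [h3, one_mul]

/-- the subgroup of the elements of the abelian group `W` inverted by `z` -/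
def wMinus (W : Subgroup G) (z : G) (hab : ∀ a ∈ W, ∀ b ∈ W, a * b = b * a) : Subgroup G where
  carrier := {w | w ∈ W ∧ z * w * z⁻¹ = w⁻¹}
  one_mem' := ⟨W.one_mem, by group⟩
  mul_mem' := by
    rintro a b ⟨ha, ha'⟩ ⟨hb, hb'⟩
    refine ⟨W.mul_mem ha hb, ?_⟩
    have e : z * (a * b) * z⁻¹ = (z * a * z⁻¹) * (z * b * z⁻¹) := by group
    rw [e, ha', hb', mul_inv_rev]
    exact hab _ (W.inv_mem ha) _ (W.inv_mem hb)
  inv_mem' := by
    rintro a ⟨ha, ha'⟩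
    refine ⟨W.inv_mem ha, ?_⟩
    have e : z * a⁻¹ * z⁻¹ = (z * a * z⁻¹)⁻¹ := by group
    rw [e, ha']

theorem mem_wMinus {W : Subgroup G} {z : G} {hab : ∀ a ∈ W, ∀ b ∈ W, a * b = b * a} {w : G} :
    w ∈ wMinus W z hab ↔ w ∈ W ∧ z * w * z⁻¹ = w⁻¹ := Iff.rfl

/-- the abstract `W = W⁻ × Z` lemma: `z ∈ X` an involution acting as `-1` on `W / Z`, with
`[X, z]` centralizing the abelian group `W` of exponent `3`, `Z` central in `X`: then `z` inverts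
`[W, X]` and `[W, X] ∩ Z = 1`. -/
theorem wminus_core (W Z X : Subgroup G) (z : G) (hzX : z ∈ X) (hzz : z * z = 1)
    (hWab : ∀ a ∈ W, ∀ b ∈ W, a * b = b * a) (hWexp : ∀ w ∈ W, w ^ 3 = 1)
    (hXW : ∀ x ∈ X, ∀ w ∈ W, x * w * x⁻¹ ∈ W)
    (hZc : ∀ ζ ∈ Z, ∀ x ∈ X, ζ * x = x * ζ)
    (hneg : ∀ w ∈ W, z * w * z⁻¹ * w ∈ Z)
    (hzconj : ∀ e ∈ X, ∀ w ∈ W, (e⁻¹ * z * e * z⁻¹) * w = w * (e⁻¹ * z * e * z⁻¹)) :
    (∀ a ∈ ⁅W, X⁆, z * a * z⁻¹ = a⁻¹) ∧ (∀ a ∈ ⁅W, X⁆, a ∈ Z → a = 1) := by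
  have hzinv : z⁻¹ = z := inv_eq_of_mul_eq_one_left hzz
  have hdec : ∀ w ∈ W, ∃ m ∈ wMinus W z hWab, ∃ ζ ∈ Z, w = m * ζ := by
    intro w hw
    have hw' : z * w * z⁻¹ ∈ W := hXW z hzX w hw
    have hc : w * (z * w * z⁻¹) = (z * w * z⁻¹) * w := hWab w hw _ hw'
    have ht : w * (z * w * z⁻¹)⁻¹ ∈ wMinus W z hWab := by
      refine ⟨W.mul_mem hw (W.inv_mem hw'), ?_⟩
      have e1 : z * (w * (z * w * z⁻¹)⁻¹) * z⁻¹ =
          (z * w * z⁻¹) * ((z * z) * w * (z⁻¹ * z⁻¹))⁻¹ := by group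
      have hzz' : z⁻¹ * z⁻¹ = 1 := by rw [hzinv, hzz]
      rw [e1, hzz, hzz']
      group
    have hs : w * (z * w * z⁻¹) ∈ Z := by
      rw [hc]
      exact hneg w hw
    exact ⟨_, (wMinus W z hWab).mul_mem ht ht, _, Z.mul_mem hs hs,
      (comm_sq_identity hc (hWexp w hw)).symm⟩
  have hinter : ∀ w ∈ wMinus W z hWab, w ∈ Z → w = 1 := by
    rintro w ⟨hwW, hw⟩ hwZ
    have h0 : w * z = z * w := hZc w hwZ z hzX
    have h1 : z * w * z⁻¹ = w := by rw [← h0]; group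
    rw [h1] at hw
    have h2 : w * w = 1 := by
      nth_rewrite 2 [hw]
      exact mul_inv_cancel w
    have h3 := hWexp w hwW
    calc w = w ^ 3 * (w * w)⁻¹ := by group
      _ = 1 := by rw [h3, h2]; simp
  have hinv : ∀ e ∈ X, ∀ m ∈ wMinus W z hWab, e * m * e⁻¹ ∈ wMinus W z hWab := by
    rintro e he m ⟨hmW, hm⟩
    refine ⟨hXW e he m hmW, ?_⟩
    have hq := hzconj e he m⁻¹ (W.inv_mem hmW)
    have e1 : z * (e * m * e⁻¹) * z⁻¹ =
        e * ((e⁻¹ * z * e * z⁻¹) * (z * m * z⁻¹) * (e⁻¹ * z * e * z⁻¹)⁻¹) * e⁻¹ := by group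
    rw [e1, hm, hq]
    group
  have hA : ⁅W, X⁆ ≤ wMinus W z hWab := by
    rw [Subgroup.commutator_le]
    intro w hw x hx
    obtain ⟨m, hm, ζ, hζ, rfl⟩ := hdec w hw
    have hζx : ζ * x = x * ζ := hZc ζ hζ x hx
    have e1 : ⁅m * ζ, x⁆ = m * (x * m⁻¹ * x⁻¹) := by
      rw [commutatorElement_def]
      calc m * ζ * x * (m * ζ)⁻¹ * x⁻¹ = m * (ζ * x) * ζ⁻¹ * m⁻¹ * x⁻¹ := by group
        _ = m * (x * ζ) * ζ⁻¹ * m⁻¹ * x⁻¹ := by rw [hζx]
        _ = m * (x * m⁻¹ * x⁻¹) := by group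
    rw [e1]
    exact (wMinus W z hWab).mul_mem hm (hinv x hx m⁻¹ ((wMinus W z hWab).inv_mem hm))
  exact ⟨fun a ha => (hA ha).2, fun a ha haZ => hinter a (hA ha) haZ⟩

end wminus

end Cfsg.Agent.Lib.Helper27.SnB
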