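import Mathlib
import Cfsg.Agent.Lib.Helper41.SnB.Q8Defs
import Cfsg.Agent.Lib.Helper34.SnB.QSDefs
import Cfsg.Agent.Lib.Helper6.SnB.QSBF
import Cfsg.Agent.Lib.Helper96.SnB.QSRes
import Cfsg.Agent.Lib.Helper11.SnB.SB
import Cfsg.Agent.Lib.Helper85.BB.Basic
import Cfsg.Agent.Lib.Helper85.BB.S2984Core
import Cfsg.Agent.Lib.Helper47.Basic
import Cfsg.Agent.Lib.Helper27.SnB.Q8XTools

/-!
S2986, package [Q8-X] (helper27): extraction of the structure of a subnormal block of type `Q₈`.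
-/

set_option autoImplicit false

namespace Cfsg.Agent.Lib.Helper27.SnB

open Cfsg Cfsg.Agent.Lib.Helper41.SnB Cfsg.Agent.Lib.Helper34.SnB
open scoped commutatorElement

universe u

variable {G : Type u} [Group G]

/-- an element which is both a `2`-element and a `3`-element is trivial -/
theorem eq_one_of_two_three {t : G} {m k : ℕ} (h2 : t ^ (2 ^ m) = 1) (h3 : t ^ (3 ^ k) = 1) :
    t = 1 := by
  have d2 := orderOf_dvd_of_pow_eq_one h2
  have d3 := orderOf_dvd_of_pow_eq_one h3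
  have hc : Nat.Coprime (2 ^ m) (3 ^ k) := Nat.Coprime.pow _ _ (by norm_num)
  exact orderOf_eq_one_iff.mp (Nat.eq_one_of_dvd_coprimes hc d2 d3)

set_option maxHeartbeats 1600000 in
/-- **[Q8-X]** extraction of the structure of a subnormal block of type `Q₈`. -/
theorem pkgQ8X_of (h3 : PkgSL3) (h3x : PkgSL3x) : PkgQ8X.{u} := by
  intro G _ _ p _ hG S₀ hS hpos T X hX sX hsn hQ8
  obtain ⟨hp3, F, instF, instFt, hF, ⟨iso⟩, hW, halt⟩ := hQ8
  subst hp3
  have bf : BF 3 X :=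
    Cfsg.Agent.Lib.Helper6.SnB.pkgBF_of Cfsg.Agent.Lib.Helper96.SnB.pkgRes X sX
  obtain ⟨hXnW, hZW, ρ, ψ, hρ, hψs, hψk, hact⟩ := hW
  obtain ⟨zD, hzD, hzDneg, hzDc, hzDsq⟩ := h3x F hF
  have hD8 : Nat.card ↥(commutator (Matrix.SpecialLinearGroup (Fin 2) F)) = 8 := h3 F hF
  obtain ⟨hzD1, hzDzD⟩ := neg_elt_facts hF zD hzDneg
  have hDfin : Finite ↥(commutator (Matrix.SpecialLinearGroup (Fin 2) F)) :=
    Nat.finite_of_card_ne_zero (by rw [hD8]; norm_num)
  -- (1) the kernel of `ρ`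
  have hNn : (pCore 3 ↥X).Normal := Cfsg.Agent.Lib.Helper6.SnB.pCore_normal_bf 3 ↥X
  have hidx : Nat.card (↥X ⧸ pCore 3 ↥X) = 8 := (Nat.card_congr iso.toEquiv).trans hD8
  have hQmem : ∀ e : ↥X, (e : G) ∈ Qb 3 X ↔ e ∈ pCore 3 ↥X := by
    intro e
    show X.subtype e ∈ (pCore 3 ↥X).map X.subtype ↔ _
    exact Subgroup.mem_map_iff_mem X.subtype_injective
  have hker : ρ.ker = pCore 3 ↥X := by
    refine Cfsg.Agent.Lib.Helper11.SnB.ker_eq_of_card ρ (pCore 3 ↥X) ?_ ?_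
    · rw [hidx, hρ, hD8]
    · intro q hq
      rw [MonoidHom.mem_ker]
      apply sec_one_of ρ ψ hψs hψk hact
      intro u hu
      have hqQ : (q : G) ∈ Qb 3 X := (hQmem q).mpr hq
      have hc := bf.WcQ u hu (q : G) hqQ
      have e : (q : G) * u * (q : G)⁻¹ * u⁻¹ = 1 := by rw [← hc]; group
      rw [e]
      exact Subgroup.one_mem _
  have hkerQ : ∀ e : ↥X, ρ e = 1 ↔ (e : G) ∈ Qb 3 X := by
    intro e
    rw [hQmem, ← hker, MonoidHom.mem_ker]
  have hρD : ∀ e : ↥X, ρ e ∈ commutator (Matrix.SpecialLinearGroup (Fin 2) F) := by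
    intro e
    rw [← hρ]
    exact ⟨e, rfl⟩
  -- (2) the complement `K`
  have hNp : IsPGroup 3 ↥(pCore 3 ↥X) := Cfsg.Agent.Lib.Helper47.pCore_isPGroup 3 ↥X
  obtain ⟨a, ha⟩ := IsPGroup.iff_card.mp hNp
  have hidx' : (pCore 3 ↥X).index = 8 := hidx
  have hcop : Nat.Coprime (Nat.card ↥(pCore 3 ↥X)) (pCore 3 ↥X).index := by
    rw [ha, hidx']
    exact Nat.Coprime.pow_left a (by decide)
  obtain ⟨H, hH⟩ := Subgroup.exists_right_complement'_of_coprime hcop
  have hHcard : Nat.card ↥H = 8 := by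
    have h1 := hH.card_mul_card
    have h2 := Subgroup.card_mul_index (pCore 3 ↥X)
    rw [hidx'] at h2
    have hpos' : 0 < Nat.card ↥(pCore 3 ↥X) := Nat.card_pos
    exact Nat.eq_of_mul_eq_mul_left hpos' (h1.trans h2.symm)
  have hK₀card : Nat.card ↥(H.map X.subtype) = 8 := by
    rw [Subgroup.card_map_of_injective X.subtype_injective, hHcard]
  have hK₀X : H.map X.subtype ≤ X := Subgroup.map_subtype_le _
  have hK₀p : IsPGroup 2 ↥(H.map X.subtype) :=
    IsPGroup.of_card (n := 3) (by rw [hK₀card]; rfl)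
  have hx8 : ∀ x ∈ X, ∃ m : ℕ, x ^ (2 ^ m) ∈ pCore 3 G := by
    intro x hx
    refine ⟨3, sX.QP ?_⟩
    have h2 : (ρ ⟨x, hx⟩) ^ 8 = 1 := by
      have h3' := pow_card_eq_one' (G := ↥(commutator (Matrix.SpecialLinearGroup (Fin 2) F)))
        (x := ⟨_, hρD ⟨x, hx⟩⟩)
      rw [hD8] at h3'
      have h4 := congrArg Subtype.val h3'
      simpa using h4
    have h4 : ρ (⟨x, hx⟩ ^ 8) = 1 := by rw [map_pow, h2]
    have h5 := (hkerQ _).mp h4
    rw [Subgroup.coe_pow] at h5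
    exact h5
  obtain ⟨c, hcP, hcK⟩ := hpos X (H.map X.subtype) hsn hx8 hK₀X hK₀p
  obtain ⟨K, hKdef⟩ : ∃ K : Subgroup G,
      K = (H.map X.subtype).map (MulAut.conj c).toMonoidHom := ⟨_, rfl⟩
  have hKmem : ∀ k, k ∈ K ↔ ∃ k₀ ∈ H.map X.subtype, c * k₀ * c⁻¹ = k := by
    intro k
    rw [hKdef, Subgroup.mem_map]
    simp only [MulEquiv.coe_toMonoidHom, MulAut.conj_apply]
  have hKS : K ≤ S₀ := by
    intro k hk
    obtain ⟨k₀, hk₀, rfl⟩ := (hKmem k).mp hk
    exact hcK k₀ hk₀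
  have hcN : c ∈ Subgroup.normalizer (X : Set G) := sX.PN hcP
  have hKX : K ≤ X := by
    intro k hk
    obtain ⟨k₀, hk₀, rfl⟩ := (hKmem k).mp hk
    exact (Subgroup.mem_normalizer_iff.mp hcN k₀).mp (hK₀X hk₀)
  have hcardK : Nat.card ↥K = 8 := by
    rw [hKdef, Subgroup.card_map_of_injective (MulAut.conj c).injective, hK₀card]
  have hK8 : ∀ k ∈ K, k ^ (2 ^ 3) = 1 := by
    intro k hk
    have h1 := pow_card_eq_one' (G := ↥K) (x := ⟨k, hk⟩)
    rw [hcardK] at h1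
    have h2 := congrArg Subtype.val h1
    simpa using h2
  have hKQ : ∀ k ∈ K, k ∈ Qb 3 X → k = 1 := by
    intro k hk hkQ
    obtain ⟨j, hj⟩ := bf.Qp ⟨k, hkQ⟩
    have hj' : k ^ (3 ^ j) = 1 := by
      have := congrArg Subtype.val hj
      simpa using this
    exact eq_one_of_two_three (hK8 k hk) hj'
  have hinj : ∀ a b : ↥X, (a : G) ∈ K → (b : G) ∈ K → ρ a = ρ b → a = b := by
    intro a b ha hb hab
    have h1 : ρ (a⁻¹ * b) = 1 := by rw [map_mul, map_inv, hab, inv_mul_cancel]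
    have h2 : ((a⁻¹ * b : ↥X) : G) ∈ Qb 3 X := (hkerQ _).mp h1
    have h3' : ((a⁻¹ * b : ↥X) : G) ∈ K := by
      rw [Subgroup.coe_mul, Subgroup.coe_inv]
      exact K.mul_mem (K.inv_mem ha) hb
    have h4 := hKQ _ h3' h2
    have h5 : a⁻¹ * b = 1 := Subtype.ext h4
    exact inv_mul_eq_one.mp h5
  have hsurjK : ∀ d ∈ commutator (Matrix.SpecialLinearGroup (Fin 2) F),
      ∃ k : ↥X, (k : G) ∈ K ∧ ρ k = d := by
    let f : ↥K → ↥(commutator (Matrix.SpecialLinearGroup (Fin 2) F)) :=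
      fun k => ⟨ρ ⟨k, hKX k.2⟩, hρD _⟩
    have hf : Function.Injective f := by
      intro k₁ k₂ h
      have h1 : ρ ⟨k₁, hKX k₁.2⟩ = ρ ⟨k₂, hKX k₂.2⟩ := congrArg Subtype.val h
      have h2 := hinj _ _ k₁.2 k₂.2 h1
      have h3' : (k₁ : G) = (k₂ : G) := congrArg (fun t : ↥X => (t : G)) h2
      exact Subtype.ext h3'
    have hb : Function.Bijective f := hf.bijective_of_nat_card_le (by rw [hcardK, hD8])
    intro d hd
    obtain ⟨k, hk⟩ := hb.2 ⟨d, hd⟩
    exact ⟨⟨k, hKX k.2⟩, k.2, congrArg Subtype.val hk⟩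
  have hdec : ∀ x ∈ X, ∃ q ∈ Qb 3 X, ∃ k ∈ K, x = q * k := by
    intro x hx
    obtain ⟨k, hkK, hk⟩ := hsurjK _ (hρD ⟨x, hx⟩)
    have h2 : ρ (⟨x, hx⟩ * k⁻¹) = 1 := by rw [map_mul, map_inv, hk, mul_inv_cancel]
    have h3' := (hkerQ _).mp h2
    rw [Subgroup.coe_mul, Subgroup.coe_inv] at h3'
    exact ⟨x * (k : G)⁻¹, h3', (k : G), hkK, by group⟩
  -- (3) the involution `z`
  obtain ⟨zX, hzK, hzρ⟩ := hsurjK zD hzD
  have hz1 : (zX : G) ≠ 1 := by
    intro h
    have h1 : zX = 1 := Subtype.ext h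
    rw [h1, map_one] at hzρ
    exact hzD1 hzρ.symm
  have hzz : (zX : G) * (zX : G) = 1 := by
    have h1 : ρ (zX * zX) = ρ 1 := by rw [map_mul, hzρ, hzDzD, map_one]
    have h2 := hinj (zX * zX) 1 (by rw [Subgroup.coe_mul]; exact K.mul_mem hzK hzK)
      (by rw [Subgroup.coe_one]; exact K.one_mem) h1
    have h4 := congrArg Subtype.val h2
    simpa using h4
  have hzc : ∀ k ∈ K, (zX : G) * k = k * (zX : G) := by
    intro k hk
    have h1 : ρ (zX * ⟨k, hKX hk⟩) = ρ (⟨k, hKX hk⟩ * zX) := by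
      rw [map_mul, map_mul, hzρ, hzDc]
    have h2 := hinj _ _ (by rw [Subgroup.coe_mul]; exact K.mul_mem hzK hk)
      (by rw [Subgroup.coe_mul]; exact K.mul_mem hk hzK) h1
    exact congrArg Subtype.val h2
  have hsq : ∀ k ∈ K, k = 1 ∨ k = (zX : G) ∨ k * k = (zX : G) := by
    intro k hk
    rcases hzDsq _ (hρD ⟨k, hKX hk⟩) with h | h | h
    · left
      have h2 := hinj ⟨k, hKX hk⟩ 1 hk (by rw [Subgroup.coe_one]; exact K.one_mem)
        (by rw [h, map_one])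
      exact congrArg Subtype.val h2
    · right; left
      have h2 := hinj ⟨k, hKX hk⟩ zX hk hzK (by rw [h, hzρ])
      exact congrArg Subtype.val h2
    · right; right
      have h2 := hinj (⟨k, hKX hk⟩ * ⟨k, hKX hk⟩) zX
        (by rw [Subgroup.coe_mul]; exact K.mul_mem hk hk) hzK (by rw [map_mul, h, hzρ])
      exact congrArg Subtype.val h2
  -- (4) the structure of `W`
  have hWab : ∀ a ∈ Wb 3 X, ∀ b ∈ Wb 3 X, a * b = b * a :=
    fun a ha b hb => bf.WcQ a ha b (bf.WQ hb)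
  have hWexp : ∀ w ∈ Wb 3 X, w ^ 3 = 1 := Cfsg.Agent.Lib.Helper85.BB.omegaOneCenter_pow 3 _
  have hXN : X ≤ Subgroup.normalizer (X : Set G) := Subgroup.le_normalizer
  have hXW : ∀ x ∈ X, ∀ w ∈ Wb 3 X, x * w * x⁻¹ ∈ Wb 3 X :=
    fun x hx w hw => bf.nW x (hXN hx) w hw
  have hneg : ∀ w ∈ Wb 3 X, (zX : G) * w * (zX : G)⁻¹ * w ∈ Zb 3 X :=
    sec_neg_of ρ ψ hψk hact zX (by rw [hzρ]; exact hzDneg)
  have hzconj : ∀ e ∈ X, ∀ w ∈ Wb 3 X,
      (e⁻¹ * (zX : G) * e * (zX : G)⁻¹) * w = w * (e⁻¹ * (zX : G) * e * (zX : G)⁻¹) := by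
    intro e he w hw
    have h1 : ρ ((⟨e, he⟩ : ↥X)⁻¹ * zX * ⟨e, he⟩ * zX⁻¹) = 1 := by
      rw [map_mul, map_mul, map_mul, map_inv, map_inv, hzρ,
        mul_assoc (ρ ⟨e, he⟩)⁻¹, hzDc, ← mul_assoc, inv_mul_cancel, one_mul, mul_inv_cancel]
    have h2 := (hkerQ _).mp h1
    have h3' : e⁻¹ * (zX : G) * e * (zX : G)⁻¹ ∈ Qb 3 X := by
      simpa using h2
    exact (bf.WcQ w hw _ h3').symm
  obtain ⟨hinvA, hAZ⟩ := wminus_core (Wb 3 X) (Zb 3 X) X (zX : G) zX.2 hzz hWab hWexp hXW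
    bf.ZC hneg hzconj
  have hcardW : Nat.card ↥(Wb 3 X) = 9 * Nat.card ↥(Zb 3 X) := by
    rw [sec_card hZW ψ hψs hψk, card_vec_of_card_three hF]
  have hcardA : Nat.card ↥(Ab 3 X) = 9 := by
    rw [← card_vec_of_card_three hF]
    let f : ↥(Ab 3 X) → Multiplicative (Fin 2 → F) := fun a => ψ ⟨a, bf.AW a.2⟩
    have hf : Function.Bijective f := by
      constructor
      · intro a b hab
        have h1 : ψ ((⟨a, bf.AW a.2⟩ : ↥(Wb 3 X)) * (⟨b, bf.AW b.2⟩ : ↥(Wb 3 X))⁻¹) = 1 := by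
          rw [map_mul, map_inv]
          exact mul_inv_eq_one.mpr hab
        have h2 := (hψk _).mp h1
        rw [Subgroup.coe_mul, Subgroup.coe_inv] at h2
        have h3' : (a : G) * (b : G)⁻¹ = 1 :=
          hAZ _ ((Ab 3 X).mul_mem a.2 ((Ab 3 X).inv_mem b.2)) h2
        exact Subtype.ext (mul_inv_eq_one.mp h3')
      · intro v
        obtain ⟨w, hw⟩ := hψs v
        obtain ⟨a, ha, ζ, hζ, hwa⟩ := bf.WAZ (w : G) w.2
        refine ⟨⟨a, ha⟩, ?_⟩
        show ψ ⟨a, bf.AW ha⟩ = v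
        have h1 : ψ ⟨ζ, hZW hζ⟩ = 1 := (hψk _).mpr hζ
        have h2 : w = (⟨a, bf.AW ha⟩ : ↥(Wb 3 X)) * ⟨ζ, hZW hζ⟩ := Subtype.ext hwa
        rw [← hw, h2, map_mul, h1, mul_one]
    exact Nat.card_eq_of_bijective f hf
  -- (5)
  have hfaithA : ∀ k ∈ K, (∀ a ∈ Ab 3 X, k * a = a * k) → k = 1 := by
    intro k hk hka
    apply hKQ k hk
    apply sX.faithW k (hKX hk)
    intro w hw
    obtain ⟨a, ha, ζ, hζ, rfl⟩ := bf.WAZ w hw
    have h1 : ζ * k⁻¹ = k⁻¹ * ζ := bf.ZC ζ hζ k⁻¹ (X.inv_mem (hKX hk))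
    have h2 := hka a ha
    have e : k * (a * ζ) * k⁻¹ * (a * ζ)⁻¹ = 1 := by
      calc k * (a * ζ) * k⁻¹ * (a * ζ)⁻¹ = k * a * (ζ * k⁻¹) * ζ⁻¹ * a⁻¹ := by group
        _ = k * a * (k⁻¹ * ζ) * ζ⁻¹ * a⁻¹ := by rw [h1]
        _ = (k * a) * k⁻¹ * a⁻¹ := by group
        _ = (a * k) * k⁻¹ * a⁻¹ := by rw [h2]
        _ = 1 := by group
    rw [e]
    exact Subgroup.one_mem _
  have hVA : ∀ v ∈ Vb 3 G, ∀ x ∈ X, x * v * x⁻¹ * v⁻¹ ∈ Ab 3 X := by
    intro v hv x hx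
    have h1 : ⁅v, x⁆ ∈ ⁅Vb 3 G, X⁆ := Subgroup.commutator_mem_commutator hv hx
    have e : x * v * x⁻¹ * v⁻¹ = ⁅v, x⁆⁻¹ := by rw [commutatorElement_def]; group
    rw [e]
    exact Subgroup.inv_mem _ (bf.VA h1)
  have hQ8S : Q8S 3 S₀ X K (zX : G) :=
    { KS := hKS
      KX := hKX
      dec := hdec
      cardK := hcardK
      zK := hzK
      z1 := hz1
      zz := hzz
      zc := hzc
      sq := hsq
      cardA := hcardA
      invA := hinvA
      faithA := hfaithA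
      VA := hVA }
  refine ⟨K, (zX : G), hQ8S, ?_⟩
  -- (6) the alternatives
  by_cases hQW : Qb 3 X = Wb 3 X
  · left
    show Qb 3 X = ⁅Wb 3 X, X⁆
    rw [← hQW]
    exact sX.QE.symm
  · right
    rcases halt with h | ⟨hQsec, hcomm, hcen, hcard3, hnq⟩
    · exact absurd h hQW
    rcases sX.alt with h | ⟨-, -, -, -, hcov, hfaith⟩
    · exact absurd h hQW
    obtain ⟨hXnQ, hWQ', ρ', ψ', hρ', hψs', hψk', hact'⟩ := hQsec
    have hzQ : (zX : G) ∉ Qb 3 X := fun h => hz1 (hKQ _ hzK h)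
    have hρ'z : ρ' zX = zD := by
      have h1 : ρ' zX ∈ commutator (Matrix.SpecialLinearGroup (Fin 2) F) := by
        rw [← hρ']
        exact ⟨_, rfl⟩
      rcases hzDsq _ h1 with h | h | h
      · exfalso
        apply hzQ
        apply hfaith (zX : G) zX.2
        exact sec_triv_of ρ' ψ' hψk' hact' zX h
      · exact h
      · exfalso
        have h2 : zX * zX = 1 := Subtype.ext hzz
        rw [← map_mul, h2, map_one] at h
        exact hzD1 h.symm
    have hZ3 : Nat.card ↥(Zb 3 X) = 3 := by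
      have h1 := hcard3
      rw [hcen] at h1
      exact h1
    have hcardQ : Nat.card ↥(Qb 3 X) = 243 := by
      have h1 : Nat.card ↥(Qb 3 X) = 9 * Nat.card ↥(Wb 3 X) := by
        rw [sec_card hWQ' ψ' hψs' hψk', card_vec_of_card_three hF]
      rw [h1, hcardW, hZ3]
    refine ⟨?_, ?_⟩
    · exact
        { WAZ := bf.WAZ
          cardZ := hZ3
          comm := hcomm
          cardQ := hcardQ
          invQ := sec_neg_of ρ' ψ' hψk' hact' zX (by rw [hρ'z]; exact hzDneg)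
          faithQ := fun k hk h => hKQ k hk (hfaith k (hKX hk) h)
          coverQ := hcov }
    · -- (7) the element of the Baumann subgroup
      have hBX : ⁅X, baumannSubgroupOf 3 (T : Subgroup G)⁆ = X := hX.2.1
      have hBn : ∀ b ∈ baumannSubgroupOf 3 (T : Subgroup G), ∀ w ∈ X, b * w * b⁻¹ ∈ X :=
        Cfsg.Agent.Lib.Helper85.BB.conj_mem_of_commutator_eq hBX
      have hex : ∃ b ∈ baumannSubgroupOf 3 (T : Subgroup G),
          b ∉ Subgroup.centralizer (Wb 3 X : Set G) := by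
        by_contra hcon
        push Not at hcon
        have h1 : ⁅X, baumannSubgroupOf 3 (T : Subgroup G)⁆ ≤
            Subgroup.centralizer (Wb 3 X : Set G) := by
          rw [Subgroup.commutator_le]
          intro e he b hb
          have hbC := hcon b hb
          rw [Subgroup.mem_centralizer_iff]
          intro w hw
          have hw' : e⁻¹ * w * e ∈ Wb 3 X := by
            have := hXW e⁻¹ (X.inv_mem he) w hw
            simpa using this
          have h2 : (e⁻¹ * w * e) * b = b * (e⁻¹ * w * e) :=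
            Subgroup.mem_centralizer_iff.mp hbC _ hw'
          have h3' : w * b⁻¹ = b⁻¹ * w := by
            have h4 := Subgroup.mem_centralizer_iff.mp hbC w hw
            calc w * b⁻¹ = b⁻¹ * (b * w) * b⁻¹ := by group
              _ = b⁻¹ * (w * b) * b⁻¹ := by rw [h4]
              _ = b⁻¹ * w := by group
          rw [commutatorElement_def]
          calc w * (e * b * e⁻¹ * b⁻¹) = e * ((e⁻¹ * w * e) * b) * e⁻¹ * b⁻¹ := by group
            _ = e * (b * (e⁻¹ * w * e)) * e⁻¹ * b⁻¹ := by rw [h2]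
            _ = e * b * e⁻¹ * (w * b⁻¹) := by group
            _ = e * b * e⁻¹ * (b⁻¹ * w) := by rw [h3']
            _ = e * b * e⁻¹ * b⁻¹ * w := by group
        rw [hBX] at h1
        apply hzQ
        apply sX.faithW (zX : G) zX.2
        intro w hw
        have h5 := Subgroup.mem_centralizer_iff.mp (h1 zX.2) w hw
        have e : (zX : G) * w * (zX : G)⁻¹ * w⁻¹ = 1 := by rw [← h5]; group
        rw [e]
        exact Subgroup.one_mem _
      obtain ⟨b, hbB, hbW⟩ := hex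
      refine ⟨b, ?_, ?_, ?_⟩
      · rw [Subgroup.mem_normalizer_iff]
        intro n
        constructor
        · exact hBn b hbB n
        · intro h
          have h1 := hBn b⁻¹ (Subgroup.inv_mem _ hbB) _ h
          have e : b⁻¹ * (b * n * b⁻¹) * b⁻¹⁻¹ = n := by group
          rwa [e] at h1
      · have hbT : b ∈ (T : Subgroup G) := (Subgroup.mem_inf.mp hbB).1
        obtain ⟨k, hk⟩ := T.isPGroup' ⟨b, hbT⟩
        refine ⟨k, ?_⟩
        have h1 := congrArg Subtype.val hk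
        simpa using h1
      · have h1 := hnq b hbB hbW
        rw [hcen] at h1
        exact h1

end Cfsg.Agent.Lib.Helper27.SnB
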